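import Mathlib
import Cfsg.Agent.Lib.Helper49.HUP.Defs
import Cfsg.Agent.Lib.Helper83.Idx2
import Cfsg.Agent.Lib.Helper39.HUP.QAut

/-!
# HUP project (S3361): common lemmas for [CORE16] and [CORE8]
-/

set_option autoImplicit false

universe v w

open Cfsg.Agent.Lib.Helper49.HUP

namespace Cfsg.Agent.Lib.Helper39.HUP

/-- a group of order dividing `4` with at most one involution is cyclic -/
theorem cyc4 {Y : Type v} [Group Y] [Finite Y]
    (hinv : ∀ s t : Y, s ≠ 1 → t ≠ 1 → s ^ 2 = 1 → t ^ 2 = 1 → s = t)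
    (h4 : Nat.card Y ∣ 4) : IsCyclic Y := by
  classical
  have hpos : 0 < Nat.card Y := Nat.card_pos
  have hle : Nat.card Y ≤ 4 := Nat.le_of_dvd (by norm_num) h4
  have hcases : Nat.card Y = 1 ∨ Nat.card Y = 2 ∨ Nat.card Y = 4 := by
    interval_cases hc : Nat.card Y <;> simp_all
  rcases hcases with h1 | h2 | h4'
  · have : Subsingleton Y := (Nat.card_eq_one_iff_unique.mp h1).1
    exact isCyclic_of_subsingleton
  · have : Fact (Nat.Prime 2) := ⟨Nat.prime_two⟩
    exact isCyclic_of_prime_card h2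
  · by_contra hc
    have hsq : ∀ y : Y, y ^ 2 = 1 := by
      intro y
      have h5 : orderOf y ∣ 4 := by rw [← h4']; exact orderOf_dvd_natCard y
      have h6 : orderOf y ≠ 4 := by
        intro h7
        exact hc (isCyclic_of_orderOf_eq_card y (by rw [h7, h4']))
      have h7 : orderOf y ≤ 4 := Nat.le_of_dvd (by norm_num) h5
      have h8 : orderOf y ∣ 2 := by
        interval_cases ho : orderOf y <;> simp_all
      exact orderOf_dvd_iff_pow_eq_one.mp h8
    have hnt : Nontrivial Y := by
      rw [← Finite.one_lt_card_iff_nontrivial, h4']; norm_num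
    obtain ⟨y0, hy0⟩ := exists_ne (1 : Y)
    have hall : ∀ y : Y, y = 1 ∨ y = y0 := by
      intro y
      by_cases hy : y = 1
      · exact Or.inl hy
      · exact Or.inr (hinv y y0 hy hy0 (hsq y) (hsq y0))
    have hinj : Function.Injective (fun y : Y => decide (y = 1)) := by
      intro x y hxy
      simp only [decide_eq_decide] at hxy
      rcases hall x with hx | hx <;> rcases hall y with hy | hy
      · rw [hx, hy]
      · exfalso; rw [hy] at hxy; exact hy0 (hxy.mp hx)
      · exfalso; rw [hx] at hxy; exact hy0 (hxy.mpr hy)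
      · rw [hx, hy]
    have h9 := Nat.card_le_card_of_injective _ hinj
    rw [h4'] at h9
    simp at h9

/-- a normal cyclic self-centralising subgroup bounds the order of the group -/
theorem card_le_of_cyclic_selfcent {X : Type v} [Group X] [Finite X] (T : Subgroup X)
    [hTn : T.Normal] (hcyc : IsCyclic T) (hCT : Subgroup.centralizer (T : Set X) ≤ T) :
    Nat.card X ≤ Nat.card T * Nat.totient (Nat.card T) := by
  let f : X →* MulAut T := MulAut.conjNormal
  have hker : f.ker ≤ T := by
    intro g hg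
    apply hCT
    rw [Subgroup.mem_centralizer_iff]
    intro t ht
    have h1 : f g ⟨t, ht⟩ = ⟨t, ht⟩ := by
      rw [MonoidHom.mem_ker.mp hg]; rfl
    have h2 : ((f g ⟨t, ht⟩ : T) : X) = g * t * g⁻¹ := MulAut.conjNormal_apply g ⟨t, ht⟩
    rw [h1] at h2
    simp only at h2
    calc t * g = g * t * g⁻¹ * g := by rw [← h2]
      _ = g * t := by group
  have h3 : f.ker.index ≤ Nat.totient (Nat.card T) := by
    rw [Subgroup.index_ker, ← IsCyclic.card_mulAut (G := T)]
    exact Subgroup.card_le_card_group f.range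
  have h4 : Nat.card f.ker ≤ Nat.card T := Subgroup.card_le_of_le hker
  calc Nat.card X = Nat.card f.ker * f.ker.index := (Subgroup.card_mul_index f.ker).symm
    _ ≤ Nat.card T * Nat.totient (Nat.card T) := Nat.mul_le_mul h4 h3

/-- a group of order `2 ^ (k+1)` has a normal subgroup of index `2` -/
theorem hasIdx2N_of_card_two_pow {X : Type v} [Group X] [Finite X] (k : ℕ)
    (h : Nat.card X = 2 ^ (k + 1)) : HasIdx2N X := by
  have : Fact (Nat.Prime 2) := ⟨Nat.prime_two⟩
  obtain ⟨K, hK⟩ := Sylow.exists_subgroup_card_pow_prime (G := X) 2 (n := k)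
    (by rw [h]; exact pow_dvd_pow 2 (by omega))
  have h1 := K.card_mul_index
  rw [hK, h, pow_succ] at h1
  have h2 : K.index = 2 := Nat.eq_of_mul_eq_mul_left (by positivity) h1
  exact ⟨K, Subgroup.normal_of_index_eq_two h2, h2⟩

/-- pull back a normal subgroup of index `2` -/
theorem hasIdx2N_of_surjective {X : Type v} {Y : Type w} [Group X] [Group Y] (f : X →* Y)
    (hf : Function.Surjective f) (h : HasIdx2N Y) : HasIdx2N X := by
  obtain ⟨N, hN, hi⟩ := h
  exact ⟨N.comap f, hN.comap f, by rw [Subgroup.index_comap_of_surjective _ hf, hi]⟩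

/-- if `X ⧸ T` has order twice an odd number then `X` has a normal subgroup of index `2` -/
theorem hasIdx2N_of_quot {X : Type v} [Group X] [Finite X] (T : Subgroup X) [T.Normal]
    (m : ℕ) (hm : Odd m) (h : Nat.card X = Nat.card T * (2 * m)) : HasIdx2N X := by
  have : Fact (Nat.Prime 2) := ⟨Nat.prime_two⟩
  have hq : Nat.card (X ⧸ T) = 2 * m := by
    have h1 := T.card_mul_index
    rw [h, Subgroup.index_eq_card] at h1
    exact (Nat.eq_of_mul_eq_mul_left Nat.card_pos h1)
  have heven : 2 ∣ Nat.card (X ⧸ T) := by rw [hq]; exact dvd_mul_right 2 m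
  obtain ⟨Q⟩ : Nonempty (Sylow 2 (X ⧸ T)) := inferInstance
  have hQ : Nat.card Q = 2 := by
    rw [Q.card_eq_multiplicity, hq]
    have hm0 : m ≠ 0 := by rintro rfl; simp at hm
    rw [Nat.factorization_mul (by norm_num) hm0]
    have h2 : m.factorization 2 = 0 :=
      Nat.factorization_eq_zero_of_not_dvd (by rw [Nat.two_dvd_ne_zero]; exact Nat.odd_iff.mp hm)
    simp [Nat.Prime.factorization_self Nat.prime_two, h2]
  have hcyc : IsCyclic Q := isCyclic_of_prime_card hQ
  obtain ⟨N, hN⟩ := Cfsg.Agent.Lib.Helper83.hasIdx2_of_hasNormalPComplement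
    (Cfsg.Agent.Lib.Helper83.hasNormalPComplement_of_cyclic Q hcyc heven) heven
  exact hasIdx2N_of_surjective (QuotientGroup.mk' T) (QuotientGroup.mk'_surjective T)
    ⟨N, Subgroup.normal_of_index_eq_two hN, hN⟩

/-- a normal `2`-subgroup lies in every Sylow `2`-subgroup -/
theorem normal_le_sylow {X : Type v} [Group X] [Finite X] (T : Subgroup X) [hTn : T.Normal]
    (hT : IsPGroup 2 T) (P : Sylow 2 X) : T ≤ P := by
  have : Fact (Nat.Prime 2) := ⟨Nat.prime_two⟩
  obtain ⟨Q, hQ⟩ := hT.exists_le_sylow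
  obtain ⟨g, hg⟩ := MulAction.exists_smul_eq X Q P
  intro x hx
  have h1 : g⁻¹ * x * g ∈ (Q : Subgroup X) := hQ (by simpa using hTn.conj_mem x hx g⁻¹)
  have h2 : x ∈ ((g • Q : Sylow 2 X) : Subgroup X) := by
    rw [Sylow.coe_subgroup_smul, Subgroup.mem_pointwise_smul_iff_inv_smul_mem]
    simpa [MulAut.smul_def, MulAut.conj_inv_apply] using h1
  rw [hg] at h2
  exact h2

/-- the conjugation action of `X` on a normal subgroup `T ≃* Q`, as automorphisms of `Q` -/
noncomputable def conjHom {X : Type v} [Group X] (T : Subgroup X) [T.Normal] {Q : Type w}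
    [Group Q] (e : T ≃* Q) : X →* MulAut Q :=
  (MulAut.congr e).toMonoidHom.comp MulAut.conjNormal

theorem mem_centralizer_of_conjHom_eq_one {X : Type v} [Group X] (T : Subgroup X) [T.Normal]
    {Q : Type w} [Group Q] (e : T ≃* Q) (g : X) (hg : conjHom T e g = 1) :
    g ∈ Subgroup.centralizer (T : Set X) := by
  rw [Subgroup.mem_centralizer_iff]
  intro t ht
  have h1 : conjHom T e g (e ⟨t, ht⟩) = e ⟨t, ht⟩ := by rw [hg]; rfl
  have h2 : conjHom T e g (e ⟨t, ht⟩) = e (MulAut.conjNormal g ⟨t, ht⟩) := by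
    simp [conjHom]
  rw [h2] at h1
  have h3 := e.injective h1
  have h4 : ((MulAut.conjNormal g ⟨t, ht⟩ : T) : X) = g * t * g⁻¹ :=
    MulAut.conjNormal_apply g ⟨t, ht⟩
  rw [h3] at h4
  simp only at h4
  calc t * g = g * t * g⁻¹ * g := by rw [← h4]
    _ = g * t := by group

/-- if automorphisms of `Q` of order dividing the prime `r ≠ 2` are trivial, then `r` does not
divide the order of a group with a normal self-centralising `2`-subgroup `T ≃* Q` -/
theorem not_dvd_card_of_aut {X : Type v} [Group X] [Finite X] (T : Subgroup X) [T.Normal]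
    (hT : IsPGroup 2 T) (hCT : Subgroup.centralizer (T : Set X) ≤ T)
    {Q : Type w} [Group Q] (e : T ≃* Q) (r : ℕ) (hr : r.Prime) (hr2 : r ≠ 2)
    (haut : ∀ ψ : MulAut Q, ψ ^ r = 1 → ψ = 1) : ¬ r ∣ Nat.card X := by
  intro hdvd
  have : Fact r.Prime := ⟨hr⟩
  obtain ⟨g, hg⟩ := exists_prime_orderOf_dvd_card' r hdvd
  have h1 : conjHom T e g = 1 := by
    apply haut
    rw [← map_pow, ← hg, pow_orderOf_eq_one, map_one]
  have h2 : g ∈ T := hCT (mem_centralizer_of_conjHom_eq_one T e g h1)
  obtain ⟨k, hk⟩ := hT ⟨g, h2⟩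
  have h3 : g ^ 2 ^ k = 1 := by
    have := congrArg Subtype.val hk
    simpa using this
  have h4 : r ∣ 2 ^ k := by rw [← hg]; exact orderOf_dvd_of_pow_eq_one h3
  exact hr2 ((Nat.prime_dvd_prime_iff_eq hr Nat.prime_two).mp (hr.dvd_of_dvd_pow h4))

end Cfsg.Agent.Lib.Helper39.HUP
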