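import Mathlib
import Cfsg.Agent.Lib.Helper49.HUP.Defs
import Cfsg.Agent.Lib.Helper39.HUP.Common

/-!
# HUP project (S3361): package [CORE16]
-/

set_option autoImplicit false

universe v

open Cfsg.Agent.Lib.Helper49.HUP

namespace Cfsg.Agent.Lib.Helper39.HUP

open QuaternionGroup

/-- a subgroup of order dividing `4` of a Sylow subgroup `≃* Q16` is cyclic -/
theorem small_T_cyclic4 {X : Type v} [Group X] [Finite X] (P : Sylow 2 X)
    (e : P ≃* QuaternionGroup 4) (T : Subgroup X) (hTP : T ≤ (P : Subgroup X))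
    (h4 : Nat.card T ∣ 4) : IsCyclic T := by
  apply cyc4 _ h4
  have key : ∀ s : T, s ≠ 1 → s ^ 2 = 1 → e ⟨s.1, hTP s.2⟩ = a 4 := by
    intro s hs hs2
    apply quat4_invol
    · rw [← map_pow]
      have : (⟨s.1, hTP s.2⟩ : P) ^ 2 = 1 := by
        ext; simpa using congrArg Subtype.val hs2
      rw [this, map_one]
    · intro h
      apply hs
      have h1 : (⟨s.1, hTP s.2⟩ : P) = 1 := e.injective (by rw [h, map_one])
      ext; simpa using congrArg Subtype.val h1
  intro s t hs ht hs2 ht2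
  have h1 := (key s hs hs2).trans (key t ht ht2).symm
  have h2 := e.injective h1
  ext; simpa using congrArg Subtype.val h2

/-- **[CORE16]** -/
theorem pkgCore16 (hh : PkgHH.{v}) : PkgCore16.{v} := by
  intro X _ _ hsol hocf ⟨P, ⟨e⟩⟩
  have : Fact (Nat.Prime 2) := ⟨Nat.prime_two⟩
  obtain ⟨T, hTn, hT2, hCT⟩ := hh hsol hocf
  haveI := hTn
  have hP16 : Nat.card (P : Subgroup X) = 16 := by
    rw [show Nat.card (P : Subgroup X) = Nat.card (QuaternionGroup 4) from
      Nat.card_congr e.toEquiv, Nat.card_eq_fintype_card, QuaternionGroup.card]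
  have hTP : T ≤ (P : Subgroup X) := normal_le_sylow T hT2 P
  have hTdvd : Nat.card T ∣ 16 := by rw [← hP16]; exact Subgroup.card_dvd_of_le hTP
  have hidx := (P : Subgroup X).card_mul_index
  rw [hP16] at hidx
  have hodd : ¬ 2 ∣ (P : Subgroup X).index := P.not_dvd_index
  obtain ⟨m, hm⟩ : ∃ m, (P : Subgroup X).index = m := ⟨_, rfl⟩
  rw [hm] at hidx hodd
  have hmodd : Odd m := Nat.odd_iff.mpr (Nat.two_dvd_ne_zero.mp hodd)
  have hmpos : 0 < m := hmodd.pos
  obtain ⟨j, hj, hTj⟩ := (Nat.dvd_prime_pow Nat.prime_two (m := 4)).mp (by simpa using hTdvd)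
  have hsmall : Nat.card T ∣ 4 → False := by
    intro h4
    have hcyc := small_T_cyclic4 P e T hTP h4
    have hle := card_le_of_cyclic_selfcent T hcyc hCT
    have h4le : Nat.card T ≤ 4 := Nat.le_of_dvd (by norm_num) h4
    have hpos : 0 < Nat.card T := Nat.card_pos
    have h8 : Nat.card T * Nat.totient (Nat.card T) ≤ 8 := by
      have ht : ∀ c : ℕ, c ≤ 4 → c * Nat.totient c ≤ 8 := by decide
      exact ht _ h4le
    have h16 : 16 ≤ Nat.card X := by rw [← hidx]; exact Nat.le_mul_of_pos_right _ hmpos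
    omega
  interval_cases j
  · exact (hsmall (by rw [hTj]; norm_num)).elim
  · exact (hsmall (by rw [hTj]; norm_num)).elim
  · exact (hsmall (by rw [hTj]; norm_num)).elim
  · exact hasIdx2N_of_quot T m hmodd (by rw [hTj, ← hidx]; ring)
  · have hTeq : T = (P : Subgroup X) :=
      Subgroup.eq_of_le_of_card_ge hTP (by rw [hP16, hTj]; norm_num)
    let e' : T ≃* QuaternionGroup 4 := (MulEquiv.subgroupCongr hTeq).trans e
    have hno : ∀ r : ℕ, r.Prime → r ≠ 2 → ¬ r ∣ Nat.card X := by
      intro r hr hr2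
      exact not_dvd_card_of_aut T hT2 hCT e' r hr hr2
        (fun ψ hψ => aut_Q16_odd ψ r (hr.odd_of_ne_two hr2) hψ)
    have hm1 : m = 1 := by
      by_contra hne
      obtain ⟨r, hr, hrm⟩ := Nat.exists_prime_and_dvd hne
      have hr2 : r ≠ 2 := by rintro rfl; exact hodd hrm
      exact hno r hr hr2 (by rw [← hidx]; exact Dvd.dvd.mul_left hrm 16)
    rw [hm1] at hidx
    exact hasIdx2N_of_card_two_pow 3 (by rw [← hidx]; norm_num)

end Cfsg.Agent.Lib.Helper39.HUP
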