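import Mathlib
import Cfsg.Agent.Lib.Helper49.HUP.Defs
import Cfsg.Agent.Lib.Helper39.HUP.Common
import Cfsg.Agent.Lib.Helper95.SL23

/-!
# HUP project (S3361): package [CORE8]
-/

set_option autoImplicit false

universe v

open Cfsg.Agent.Lib.Helper49.HUP

namespace Cfsg.Agent.Lib.Helper39.HUP

open QuaternionGroup

/-- a subgroup of order dividing `4` of a Sylow subgroup `≃* Q8` is cyclic -/
theorem small_T_cyclic2 {X : Type v} [Group X] [Finite X] (P : Sylow 2 X)
    (e : P ≃* QuaternionGroup 2) (T : Subgroup X) (hTP : T ≤ (P : Subgroup X))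
    (h4 : Nat.card T ∣ 4) : IsCyclic T := by
  apply cyc4 _ h4
  have key : ∀ s : T, s ≠ 1 → s ^ 2 = 1 → e ⟨s.1, hTP s.2⟩ = a 2 := by
    intro s hs hs2
    apply quat2_invol
    · rw [← map_pow]
      have : (⟨s.1, hTP s.2⟩ : P) ^ 2 = 1 := by
        ext; simpa using congrArg Subtype.val hs2
      rw [this, map_one]
    · intro h
      apply hs
      have h1 : (⟨s.1, hTP s.2⟩ : P) = 1 := e.injective (by rw [h, map_one])
      ext; simpa using congrArg Subtype.val h1
  intro s t hs ht hs2 ht2
  have h1 := (key s hs hs2).trans (key t ht ht2).symm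
  have h2 := e.injective h1
  ext; simpa using congrArg Subtype.val h2

/-- **[CORE8]** -/
theorem pkgCore8 (hh : PkgHH.{v}) : PkgCore8.{v} := by
  intro X _ _ hsol hocf ⟨P, ⟨e⟩⟩ h120
  have : Fact (Nat.Prime 2) := ⟨Nat.prime_two⟩
  obtain ⟨T, hTn, hT2, hCT⟩ := hh hsol hocf
  haveI := hTn
  have hP8 : Nat.card (P : Subgroup X) = 8 := by
    rw [show Nat.card (P : Subgroup X) = Nat.card (QuaternionGroup 2) from
      Nat.card_congr e.toEquiv, Nat.card_eq_fintype_card, QuaternionGroup.card]
  have hTP : T ≤ (P : Subgroup X) := normal_le_sylow T hT2 P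
  have hTdvd : Nat.card T ∣ 8 := by rw [← hP8]; exact Subgroup.card_dvd_of_le hTP
  have hidx := (P : Subgroup X).card_mul_index
  rw [hP8] at hidx
  have hodd : ¬ 2 ∣ (P : Subgroup X).index := P.not_dvd_index
  obtain ⟨m, hm⟩ : ∃ m, (P : Subgroup X).index = m := ⟨_, rfl⟩
  rw [hm] at hidx hodd
  have hmodd : Odd m := Nat.odd_iff.mpr (Nat.two_dvd_ne_zero.mp hodd)
  have hmpos : 0 < m := hmodd.pos
  have hm15 : m ∣ 15 := by
    have h1 : 8 * m ∣ 8 * 15 := by rw [hidx]; exact h120
    exact (Nat.mul_dvd_mul_iff_left (by norm_num)).mp h1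
  obtain ⟨j, hj, hTj⟩ := (Nat.dvd_prime_pow Nat.prime_two (m := 3)).mp (by simpa using hTdvd)
  have hsmall : Nat.card T ∣ 4 → HasIdx2N X := by
    intro h4
    have hcyc := small_T_cyclic2 P e T hTP h4
    have hle := card_le_of_cyclic_selfcent T hcyc hCT
    have h4le : Nat.card T ≤ 4 := Nat.le_of_dvd (by norm_num) h4
    have h8 : Nat.card T * Nat.totient (Nat.card T) ≤ 8 := by
      have ht : ∀ c : ℕ, c ≤ 4 → c * Nat.totient c ≤ 8 := by decide
      exact ht _ h4le
    have hm1 : m = 1 := by omega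
    exact hasIdx2N_of_card_two_pow 2 (by rw [← hidx, hm1]; norm_num)
  interval_cases j
  · exact Or.inl (hsmall (by rw [hTj]; norm_num))
  · exact Or.inl (hsmall (by rw [hTj]; norm_num))
  · exact Or.inl (hsmall (by rw [hTj]; norm_num))
  · have hT8 : Nat.card T = 8 := by rw [hTj]; norm_num
    have hTeq : T = (P : Subgroup X) :=
      Subgroup.eq_of_le_of_card_ge hTP (by rw [hP8, hT8])
    let e' : T ≃* QuaternionGroup 2 := (MulEquiv.subgroupCongr hTeq).trans e
    have h5 : ¬ 5 ∣ Nat.card X :=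
      not_dvd_card_of_aut T hT2 hCT e' 5 (by norm_num) (by norm_num)
        (fun ψ hψ => aut_Q8_five ψ hψ)
    have h5m : ¬ 5 ∣ m := fun h => h5 (by rw [← hidx]; exact Dvd.dvd.mul_left h 8)
    have hm13 : m = 1 ∨ m = 3 := by
      have hmle : m ≤ 15 := Nat.le_of_dvd (by norm_num) hm15
      clear hidx hm hodd hmodd hsmall
      interval_cases m <;> first | omega | (exfalso; revert hm15; decide) | (exfalso; revert h5m; decide)
    rcases hm13 with hm1 | hm3
    · left
      exact hasIdx2N_of_card_two_pow 2 (by rw [← hidx, hm1]; norm_num)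
    · right
      have hX24 : Nat.card X = 24 := by rw [← hidx, hm3]
      refine ⟨hX24, ?_⟩
      have : Fact (Nat.Prime 3) := ⟨by norm_num⟩
      obtain ⟨y, hy⟩ := exists_prime_orderOf_dvd_card' 3 (by rw [hX24]; norm_num)
      have hy3 : y ^ 3 = 1 := by rw [← hy]; exact pow_orderOf_eq_one y
      have hynT : y ∉ T := by
        intro hyT
        have h1 : orderOf (⟨y, hyT⟩ : T) = 3 := by rw [Subgroup.orderOf_mk, hy]
        have h2 := orderOf_dvd_natCard (⟨y, hyT⟩ : T)
        rw [h1, hT8] at h2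
        norm_num at h2
      apply Cfsg.Agent.Lib.Helper95.SL23.nonempty_mulEquiv_SL23 T e' y hy3
      · intro h hh'
        exact hTn.conj_mem h hh' y
      · by_contra hcon
        push_neg at hcon
        apply hynT
        apply hCT
        rw [Subgroup.mem_centralizer_iff]
        intro t ht
        have h1 := hcon t ht
        calc t * y = y * t * y⁻¹ * y := by rw [h1]
          _ = y * t := by group
      · apply Subgroup.eq_top_of_le_card
        have h8 : 8 ∣ Nat.card (T ⊔ Subgroup.zpowers y : Subgroup X) := by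
          rw [← hT8]; exact Subgroup.card_dvd_of_le le_sup_left
        have h3 : 3 ∣ Nat.card (T ⊔ Subgroup.zpowers y : Subgroup X) := by
          rw [← hy, ← Nat.card_zpowers]; exact Subgroup.card_dvd_of_le le_sup_right
        have h24 : 8 * 3 ∣ Nat.card (T ⊔ Subgroup.zpowers y : Subgroup X) :=
          Nat.Coprime.mul_dvd_of_dvd_of_dvd (by norm_num) h8 h3
        rw [hX24]
        exact Nat.le_of_dvd Nat.card_pos h24

end Cfsg.Agent.Lib.Helper39.HUP
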